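import Cfsg.Agent.Nodes.TypeD
import Cfsg.Agent.Tits.Core

/-!
# Stabilisers of torus characters of type `D₄` (S4842, POmega8+; statements of helper158)

`cs` of type `TypeD.M 2` (nodes `0 - 1`, `1 - 2`, `1 - 3`), `B` an abelian group, `W` acting on the
characters `b : Fin 4 → B` (`b j` = the value on the `j`-th coroot).

* `E0 : El {0,1} b → b 0 = 1 ∧ b 1 = 1`
* `E1 : b 0 = b 1 = 1, El {0,1,2} (x • b) → b 2 = 1`
* `E2 : b 0 = b 1 = 1, El {0,1,3} (x • b) → b 3 = 1`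
-/

set_option autoImplicit false

namespace Cfsg.Agent.H643.OZ.D4

open Cfsg.Agent.Tits.Core Cfsg.Agent.Nodes

universe u v

/-! ### abstract form -/

/-- the Cartan matrix -/
def ca (i j : Fin 4) : ℤ := if i = j then 2 else
  if (i = 1 ∨ j = 1) then -1 else 0

/-- a group acting on the characters of the torus of type `D₄` -/
structure DS (W : Type u) [Group W] (B : Type v) [CommGroup B] where
  s : Fin 4 → W
  ph : W →* Equiv.Perm (Fin 4 → B)
  gen : Subgroup.closure (Set.range s) = ⊤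
  sq : ∀ i, s i * s i = 1
  c02 : s 0 * s 2 = s 2 * s 0
  c03 : s 0 * s 3 = s 3 * s 0
  c23 : s 2 * s 3 = s 3 * s 2
  b01 : s 0 * s 1 * s 0 = s 1 * s 0 * s 1
  b12 : s 1 * s 2 * s 1 = s 2 * s 1 * s 2
  b13 : s 1 * s 3 * s 1 = s 3 * s 1 * s 3
  act : ∀ i b j, ph (s i) b j = b j * (b i) ^ (-(ca i j))

namespace DS

variable {W : Type u} [Group W] {B : Type v} [CommGroup B] (D : DS W B)

/-- parabolic subgroups -/
def P (J : Set (Fin 4)) : Subgroup W := Subgroup.closure (D.s '' J)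

/-- no conjugate of the stabiliser in `P J` lies in a smaller parabolic subgroup -/
def El (J : Set (Fin 4)) (b : Fin 4 → B) : Prop :=
  ∀ v ∈ D.P J, ∀ K ⊂ J, ∃ w ∈ D.P J, w ∉ D.P K ∧ D.ph w (D.ph v b) = D.ph v b

theorem mem_P {J : Set (Fin 4)} {i : Fin 4} (hi : i ∈ J) : D.s i ∈ D.P J :=
  Subgroup.subset_closure ⟨i, hi, rfl⟩

theorem P_ind {J : Set (Fin 4)} {p : W → Prop} (h1 : p 1) (hm : ∀ i ∈ J, ∀ w, p w → p (D.s i * w)) {w : W}
    (hw : w ∈ D.P J) : p w := by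
  refine Subgroup.closure_induction_left (p := fun x _ => p x) h1 ?_ ?_ hw
  · rintro _ ⟨i, hi, rfl⟩ y _ hy
    exact hm i hi y hy
  · rintro _ ⟨i, hi, rfl⟩ y _ hy
    have h2 : (D.s i)⁻¹ = D.s i := by rw [inv_eq_iff_mul_eq_one, D.sq]
    rw [h2]
    exact hm i hi y hy

theorem all_ind {p : W → Prop} (h1 : p 1) (hm : ∀ i, ∀ w, p w → p (D.s i * w)) (w : W) : p w := by
  refine D.P_ind (J := Set.univ) h1 (fun i _ => hm i) ?_
  unfold P
  rw [Set.image_univ, D.gen]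
  exact Subgroup.mem_top _

theorem El.move {J : Set (Fin 4)} {b : Fin 4 → B} (h : D.El J b) {v : W} (hv : v ∈ D.P J) : D.El J (D.ph v b) := by
  intro w hw K hK
  obtain ⟨x, hx, hxK, e⟩ := h (w * v) (mul_mem hw hv) K hK
  refine ⟨x, hx, hxK, ?_⟩
  rw [map_mul, Equiv.Perm.mul_apply] at e
  exact e

/-! ### cosets -/

theorem ssq (i : Fin 4) (w : W) : D.s i * (D.s i * w) = w := by rw [← mul_assoc, D.sq, one_mul]

theorem cos1 {w : W} (hw : w ∈ D.P {0, 1, 2}) : ∃ k ∈ D.P {0, 1}, w = k ∨ w = D.s 2 * k ∨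
    w = D.s 1 * (D.s 2 * k) ∨ w = D.s 0 * (D.s 1 * (D.s 2 * k)) := by
  have h0 : D.s 0 ∈ D.P {0, 1} := D.mem_P (by simp)
  have h1 : D.s 1 ∈ D.P {0, 1} := D.mem_P (by simp)
  refine D.P_ind (J := {0, 1, 2}) (p := fun w => ∃ k ∈ D.P {0, 1}, w = k ∨ w = D.s 2 * k ∨
    w = D.s 1 * (D.s 2 * k) ∨ w = D.s 0 * (D.s 1 * (D.s 2 * k))) ⟨1, one_mem _, Or.inl rfl⟩ ?_ hw
  rintro i hi w ⟨k, hk, h⟩
  simp only [Set.mem_insert_iff, Set.mem_singleton_iff] at hi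
  rcases hi with rfl | rfl | rfl
  · rcases h with rfl | rfl | rfl | rfl
    · exact ⟨_, mul_mem h0 hk, Or.inl rfl⟩
    · refine ⟨D.s 0 * k, mul_mem h0 hk, Or.inr (Or.inl ?_)⟩
      rw [← mul_assoc, D.c02, mul_assoc]
    · exact ⟨k, hk, Or.inr (Or.inr (Or.inr rfl))⟩
    · exact ⟨k, hk, Or.inr (Or.inr (Or.inl (by rw [D.ssq])))⟩
  · rcases h with rfl | rfl | rfl | rfl
    · exact ⟨_, mul_mem h1 hk, Or.inl rfl⟩
    · exact ⟨k, hk, Or.inr (Or.inr (Or.inl rfl))⟩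
    · exact ⟨k, hk, Or.inr (Or.inl (by rw [D.ssq]))⟩
    · refine ⟨D.s 0 * k, mul_mem h0 hk, Or.inr (Or.inr (Or.inr ?_))⟩
      calc D.s 1 * (D.s 0 * (D.s 1 * (D.s 2 * k))) = (D.s 1 * D.s 0 * D.s 1) * (D.s 2 * k) := by group
        _ = (D.s 0 * D.s 1 * D.s 0) * (D.s 2 * k) := by rw [D.b01]
        _ = D.s 0 * (D.s 1 * ((D.s 0 * D.s 2) * k)) := by group
        _ = D.s 0 * (D.s 1 * ((D.s 2 * D.s 0) * k)) := by rw [D.c02]
        _ = _ := by group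
  · rcases h with rfl | rfl | rfl | rfl
    · exact ⟨_, hk, Or.inr (Or.inl rfl)⟩
    · exact ⟨k, hk, Or.inl (by rw [D.ssq])⟩
    · refine ⟨D.s 1 * k, mul_mem h1 hk, Or.inr (Or.inr (Or.inl ?_))⟩
      calc D.s 2 * (D.s 1 * (D.s 2 * k)) = (D.s 2 * D.s 1 * D.s 2) * k := by group
        _ = (D.s 1 * D.s 2 * D.s 1) * k := by rw [D.b12]
        _ = _ := by group
    · refine ⟨D.s 1 * k, mul_mem h1 hk, Or.inr (Or.inr (Or.inr ?_))⟩
      calc D.s 2 * (D.s 0 * (D.s 1 * (D.s 2 * k))) = (D.s 2 * D.s 0) * (D.s 1 * (D.s 2 * k)) := by group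
        _ = (D.s 0 * D.s 2) * (D.s 1 * (D.s 2 * k)) := by rw [D.c02]
        _ = D.s 0 * ((D.s 2 * D.s 1 * D.s 2) * k) := by group
        _ = D.s 0 * ((D.s 1 * D.s 2 * D.s 1) * k) := by rw [D.b12]
        _ = _ := by group

theorem cos2 {w : W} (hw : w ∈ D.P {0, 1, 2}) : ∃ k ∈ D.P {0, 2}, w = k ∨ w = D.s 1 * k ∨
    w = D.s 0 * (D.s 1 * k) ∨ w = D.s 2 * (D.s 1 * k) ∨ w = D.s 0 * (D.s 2 * (D.s 1 * k)) ∨
    w = D.s 1 * (D.s 0 * (D.s 2 * (D.s 1 * k))) := by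
  have h0 : D.s 0 ∈ D.P {0, 2} := D.mem_P (by simp)
  have h2 : D.s 2 ∈ D.P {0, 2} := D.mem_P (by simp)
  refine D.P_ind (J := {0, 1, 2}) (p := fun w => ∃ k ∈ D.P {0, 2}, w = k ∨ w = D.s 1 * k ∨
    w = D.s 0 * (D.s 1 * k) ∨ w = D.s 2 * (D.s 1 * k) ∨ w = D.s 0 * (D.s 2 * (D.s 1 * k)) ∨
    w = D.s 1 * (D.s 0 * (D.s 2 * (D.s 1 * k)))) ⟨1, one_mem _, Or.inl rfl⟩ ?_ hw
  rintro i hi w ⟨k, hk, h⟩
  simp only [Set.mem_insert_iff, Set.mem_singleton_iff] at hi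
  rcases hi with rfl | rfl | rfl
  · rcases h with rfl | rfl | rfl | rfl | rfl | rfl
    · exact ⟨_, mul_mem h0 hk, Or.inl rfl⟩
    · exact ⟨k, hk, Or.inr (Or.inr (Or.inl rfl))⟩
    · exact ⟨k, hk, Or.inr (Or.inl (by rw [D.ssq]))⟩
    · exact ⟨k, hk, Or.inr (Or.inr (Or.inr (Or.inr (Or.inl rfl))))⟩
    · exact ⟨k, hk, Or.inr (Or.inr (Or.inr (Or.inl (by rw [D.ssq]))))⟩
    · refine ⟨D.s 2 * k, mul_mem h2 hk, Or.inr (Or.inr (Or.inr (Or.inr (Or.inr ?_))))⟩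
      calc D.s 0 * (D.s 1 * (D.s 0 * (D.s 2 * (D.s 1 * k)))) = (D.s 0 * D.s 1 * D.s 0) * (D.s 2 * (D.s 1 * k)) := by
            group
        _ = (D.s 1 * D.s 0 * D.s 1) * (D.s 2 * (D.s 1 * k)) := by rw [D.b01]
        _ = D.s 1 * (D.s 0 * ((D.s 1 * D.s 2 * D.s 1) * k)) := by group
        _ = D.s 1 * (D.s 0 * ((D.s 2 * D.s 1 * D.s 2) * k)) := by rw [D.b12]
        _ = _ := by group
  · rcases h with rfl | rfl | rfl | rfl | rfl | rfl
    · exact ⟨_, hk, Or.inr (Or.inl rfl)⟩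
    · exact ⟨k, hk, Or.inl (by rw [D.ssq])⟩
    · refine ⟨D.s 0 * k, mul_mem h0 hk, Or.inr (Or.inr (Or.inl ?_))⟩
      calc D.s 1 * (D.s 0 * (D.s 1 * k)) = (D.s 1 * D.s 0 * D.s 1) * k := by group
        _ = (D.s 0 * D.s 1 * D.s 0) * k := by rw [D.b01]
        _ = _ := by group
    · refine ⟨D.s 2 * k, mul_mem h2 hk, Or.inr (Or.inr (Or.inr (Or.inl ?_)))⟩
      calc D.s 1 * (D.s 2 * (D.s 1 * k)) = (D.s 1 * D.s 2 * D.s 1) * k := by group
        _ = (D.s 2 * D.s 1 * D.s 2) * k := by rw [D.b12]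
        _ = _ := by group
    · exact ⟨k, hk, Or.inr (Or.inr (Or.inr (Or.inr (Or.inr rfl))))⟩
    · exact ⟨k, hk, Or.inr (Or.inr (Or.inr (Or.inr (Or.inl (by rw [D.ssq])))))⟩
  · rcases h with rfl | rfl | rfl | rfl | rfl | rfl
    · exact ⟨_, mul_mem h2 hk, Or.inl rfl⟩
    · exact ⟨k, hk, Or.inr (Or.inr (Or.inr (Or.inl rfl)))⟩
    · refine ⟨k, hk, Or.inr (Or.inr (Or.inr (Or.inr (Or.inl ?_))))⟩
      rw [← mul_assoc, ← D.c02, mul_assoc]
    · exact ⟨k, hk, Or.inr (Or.inl (by rw [D.ssq]))⟩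
    · refine ⟨k, hk, Or.inr (Or.inr (Or.inl ?_))⟩
      rw [← mul_assoc, ← D.c02, mul_assoc, D.ssq]
    · refine ⟨D.s 0 * k, mul_mem h0 hk, Or.inr (Or.inr (Or.inr (Or.inr (Or.inr ?_))))⟩
      calc D.s 2 * (D.s 1 * (D.s 0 * (D.s 2 * (D.s 1 * k)))) = D.s 2 * (D.s 1 * ((D.s 0 * D.s 2) * (D.s 1 * k))) := by
            group
        _ = D.s 2 * (D.s 1 * ((D.s 2 * D.s 0) * (D.s 1 * k))) := by rw [D.c02]
        _ = (D.s 2 * D.s 1 * D.s 2) * (D.s 0 * (D.s 1 * k)) := by group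
        _ = (D.s 1 * D.s 2 * D.s 1) * (D.s 0 * (D.s 1 * k)) := by rw [D.b12]
        _ = D.s 1 * (D.s 2 * ((D.s 1 * D.s 0 * D.s 1) * k)) := by group
        _ = D.s 1 * (D.s 2 * ((D.s 0 * D.s 1 * D.s 0) * k)) := by rw [D.b01]
        _ = D.s 1 * ((D.s 2 * D.s 0) * (D.s 1 * (D.s 0 * k))) := by group
        _ = D.s 1 * ((D.s 0 * D.s 2) * (D.s 1 * (D.s 0 * k))) := by rw [D.c02]
        _ = _ := by group

theorem cos0 {w : W} (hw : w ∈ D.P {0, 1}) : ∃ k ∈ D.P {0}, w = k ∨ w = D.s 1 * k ∨ w = D.s 0 * (D.s 1 * k) := by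
  have h0 : D.s 0 ∈ D.P {0} := D.mem_P (by simp)
  refine D.P_ind (J := {0, 1}) (p := fun w => ∃ k ∈ D.P {0}, w = k ∨ w = D.s 1 * k ∨
    w = D.s 0 * (D.s 1 * k)) ⟨1, one_mem _, Or.inl rfl⟩ ?_ hw
  rintro i hi w ⟨k, hk, h⟩
  simp only [Set.mem_insert_iff, Set.mem_singleton_iff] at hi
  rcases hi with rfl | rfl
  · rcases h with rfl | rfl | rfl
    · exact ⟨_, mul_mem h0 hk, Or.inl rfl⟩
    · exact ⟨k, hk, Or.inr (Or.inr rfl)⟩
    · exact ⟨k, hk, Or.inr (Or.inl (by rw [D.ssq]))⟩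
  · rcases h with rfl | rfl | rfl
    · exact ⟨_, hk, Or.inr (Or.inl rfl)⟩
    · exact ⟨k, hk, Or.inl (by rw [D.ssq])⟩
    · refine ⟨D.s 0 * k, mul_mem h0 hk, Or.inr (Or.inr ?_)⟩
      calc D.s 1 * (D.s 0 * (D.s 1 * k)) = (D.s 1 * D.s 0 * D.s 1) * k := by group
        _ = (D.s 0 * D.s 1 * D.s 0) * k := by rw [D.b01]
        _ = _ := by group

/-! ### coordinates -/

theorem a_self (i : Fin 4) (b : Fin 4 → B) : D.ph (D.s i) b i = (b i)⁻¹ := by
  rw [D.act]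
  have : ca i i = 2 := by simp [ca]
  rw [this, zpow_neg, zpow_two, mul_inv, mul_inv_cancel_left]

theorem a_adj {i j : Fin 4} (h : ca i j = -1) (b : Fin 4 → B) : D.ph (D.s i) b j = b j * b i := by
  rw [D.act, h]; simp

theorem a_non {i j : Fin 4} (h : ca i j = 0) (b : Fin 4 → B) : D.ph (D.s i) b j = b j := by
  rw [D.act, h]; simp

theorem fix_of_one {i : Fin 4} {b : Fin 4 → B} (h : b i = 1) : D.ph (D.s i) b = b := by
  funext j; rw [D.act, h]; simp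

theorem mul_ph (x y : W) (b : Fin 4 → B) : D.ph (x * y) b = D.ph x (D.ph y b) := by
  rw [map_mul, Equiv.Perm.mul_apply]

/-! ### `E0` -/

theorem e0_aux {y : Fin 4 → B} {w : W} (hw : w ∈ D.P {0, 1}) (hn : w ∉ D.P {0}) (e : D.ph w y = y) :
    y 1 = 1 ∨ y 1 * y 0 = 1 := by
  obtain ⟨k, hk, h⟩ := D.cos0 hw
  have h1 : D.ph k y 1 = y 1 ∧ D.ph k y 2 = y 2 ∧ (D.ph k y = y ∨ D.ph k y = D.ph (D.s 0) y) ∨
      D.ph k y 1 = y 1 * y 0 ∧ D.ph k y 2 = y 2 ∧ (D.ph k y = y ∨ D.ph k y = D.ph (D.s 0) y) := by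
    have h2 : D.ph k y = y ∨ D.ph k y = D.ph (D.s 0) y := by
      refine D.P_ind (J := {0}) (p := fun k => D.ph k y = y ∨ D.ph k y = D.ph (D.s 0) y) (Or.inl (by simp)) ?_ hk
      intro i hi w hw
      rw [Set.mem_singleton_iff] at hi
      subst hi
      rw [D.mul_ph]
      rcases hw with hw | hw
      · right; rw [hw]
      · left; rw [hw, ← D.mul_ph, D.sq]; simp
    rcases h2 with h2 | h2
    · left; rw [h2]; exact ⟨rfl, rfl, Or.inl rfl⟩
    · right; rw [h2]; exact ⟨D.a_adj (by decide) _, D.a_non (by decide) _, Or.inr rfl⟩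
  have h3 : D.ph k y 2 = y 2 := by rcases h1 with h1 | h1 <;> exact h1.2.1
  have h4 : D.ph k y 1 = 1 := by
    rcases h with rfl | rfl | rfl
    · exact absurd hk hn
    · have h5 := congrFun e 2
      rw [D.mul_ph, D.a_adj (by decide), h3] at h5
      exact mul_eq_left.1 h5
    · have h5 := congrFun e 2
      rw [D.mul_ph, D.mul_ph, D.a_non (by decide), D.a_adj (by decide), h3] at h5
      exact mul_eq_left.1 h5
  rcases h1 with h1 | h1
  · left; rw [← h1.1, h4]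
  · right; rw [← h1.1, h4]

theorem ss0 : ({0} : Set (Fin 4)) ⊂ {0, 1} := by
  refine ⟨by intro x hx; simp only [Set.mem_singleton_iff] at hx; simp [hx], fun h => ?_⟩
  have := h (show (1 : Fin 4) ∈ ({0, 1} : Set (Fin 4)) by simp)
  simp at this

theorem e0 {b : Fin 4 → B} (h : D.El {0, 1} b) : b 0 = 1 ∧ b 1 = 1 := by
  have h0 : D.s 0 ∈ D.P {0, 1} := D.mem_P (by simp)
  have h1 : D.s 1 ∈ D.P {0, 1} := D.mem_P (by simp)
  obtain ⟨w, hw, hn, e⟩ := h 1 (one_mem _) {0} ss0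
  rw [map_one, Equiv.Perm.one_apply] at e
  rcases D.e0_aux hw hn e with e1 | e1
  · -- use `s₁ s₀`
    obtain ⟨w, hw, hn, e⟩ := h (D.s 1 * D.s 0) (mul_mem h1 h0) {0} ss0
    have e2 := D.e0_aux hw hn e
    have e3 : D.ph (D.s 1 * D.s 0) b 1 = (b 0)⁻¹ := by
      rw [D.mul_ph, D.a_self, D.a_adj (by decide), e1, one_mul]
    have e4 : D.ph (D.s 1 * D.s 0) b 0 = 1 := by
      rw [D.mul_ph, D.a_adj (by decide), D.a_self, D.a_adj (by decide), e1, one_mul, inv_mul_cancel]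
    rw [e3, e4, mul_one, or_self, inv_eq_one] at e2
    exact ⟨e2, e1⟩
  · obtain ⟨w, hw, hn, e⟩ := h (D.s 1) h1 {0} ss0
    have e2 := D.e0_aux hw hn e
    have e3 : D.ph (D.s 1) b 1 = (b 1)⁻¹ := D.a_self _ _
    have e4 : D.ph (D.s 1) b 0 = 1 := by rw [D.a_adj (by decide), mul_comm, e1]
    rw [e3, e4, mul_one, or_self, inv_eq_one] at e2
    rw [e2, one_mul] at e1
    exact ⟨e1, e2⟩

/-! ### `E1` -/

theorem ss01 : ({0, 1} : Set (Fin 4)) ⊂ {0, 1, 2} := by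
  refine ⟨by intro x hx; simp only [Set.mem_insert_iff, Set.mem_singleton_iff] at hx ⊢; tauto, fun h => ?_⟩
  have := h (show (2 : Fin 4) ∈ ({0, 1, 2} : Set (Fin 4)) by simp)
  simp at this

theorem ss02 : ({0, 2} : Set (Fin 4)) ⊂ {0, 1, 2} := by
  refine ⟨by intro x hx; simp only [Set.mem_insert_iff, Set.mem_singleton_iff] at hx ⊢; tauto, fun h => ?_⟩
  have := h (show (1 : Fin 4) ∈ ({0, 1, 2} : Set (Fin 4)) by simp)
  simp at this

theorem l0 {y : Fin 4 → B} (y0 : y 0 = 1) (y1 : y 1 = 1) (h : D.El {0, 1, 2} y) : y 2 = 1 := by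
  obtain ⟨w, hw, hn, e⟩ := h 1 (one_mem _) {0, 1} ss01
  rw [map_one, Equiv.Perm.one_apply] at e
  obtain ⟨k, hk, h1⟩ := D.cos1 hw
  have hky : D.ph k y = y := by
    refine D.P_ind (J := {0, 1}) (p := fun k => D.ph k y = y) (by simp) ?_ hk
    intro i hi w hw
    rw [D.mul_ph, hw]
    simp only [Set.mem_insert_iff, Set.mem_singleton_iff] at hi
    rcases hi with rfl | rfl
    · exact D.fix_of_one y0
    · exact D.fix_of_one y1
  rcases h1 with rfl | rfl | rfl | rfl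
  · exact absurd hk hn
  · have h5 := congrFun e 1
    rw [D.mul_ph, hky, D.a_adj (by decide)] at h5
    exact mul_eq_left.1 h5
  · have h5 := congrFun e 0
    rw [D.mul_ph, D.mul_ph, hky, D.a_adj (by decide), D.a_non (by decide), D.a_adj (by decide), y0, y1] at h5
    simpa using h5
  · have h5 := congrFun e 0
    rw [D.mul_ph, D.mul_ph, D.mul_ph, hky, D.a_self, D.a_adj (by decide), D.a_non (by decide),
      D.a_adj (by decide), y0, y1] at h5
    simpa using h5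

theorem l1 {y : Fin 4 → B} (y0 : y 0 = 1) (h : D.El {0, 1, 2} y) : y 2 = 1 := by
  by_cases y1 : y 1 = 1
  · exact D.l0 y0 y1 h
  by_cases y12 : y 1 * y 2 = 1
  · have h2 : D.s 2 ∈ D.P {0, 1, 2} := D.mem_P (by simp)
    have h3 := D.l0 (y := D.ph (D.s 2) y) (by rw [D.a_non (by decide), y0]) (by rw [D.a_adj (by decide), y12])
      (El.move D h h2)
    rw [D.a_self, inv_eq_one] at h3
    exact h3
  by_contra y2
  obtain ⟨w, hw, hn, e⟩ := h 1 (one_mem _) {0, 2} ss02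
  rw [map_one, Equiv.Perm.one_apply] at e
  obtain ⟨k, hk, h1⟩ := D.cos2 hw
  have hk2 : D.ph k y = y ∨ D.ph k y = D.ph (D.s 2) y := by
    refine D.P_ind (J := {0, 2}) (p := fun k => D.ph k y = y ∨ D.ph k y = D.ph (D.s 2) y) (Or.inl (by simp)) ?_ hk
    intro i hi w hw
    rw [D.mul_ph]
    simp only [Set.mem_insert_iff, Set.mem_singleton_iff] at hi
    rcases hi with rfl | rfl
    · rcases hw with hw | hw
      · left; rw [hw]; exact D.fix_of_one y0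
      · right; rw [hw]; exact D.fix_of_one (by rw [D.a_non (by decide), y0])
    · rcases hw with hw | hw
      · right; rw [hw]
      · left; rw [hw, ← D.mul_ph, D.sq]; simp
  obtain ⟨z, hz, z0, z1, z2, z12⟩ : ∃ z : Fin 4 → B, D.ph k y = z ∧ z 0 = 1 ∧ z 1 ≠ 1 ∧ z 2 ≠ 1 ∧ z 2 * z 1 ≠ 1 := by
    rcases hk2 with hk2 | hk2
    · exact ⟨y, hk2, y0, y1, y2, by rw [mul_comm]; exact y12⟩
    · refine ⟨_, hk2, by rw [D.a_non (by decide), y0], by rw [D.a_adj (by decide)]; exact y12, ?_, ?_⟩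
      · rw [D.a_self, ne_eq, inv_eq_one]; exact y2
      · rw [D.a_self, D.a_adj (by decide), mul_comm (y 1), inv_mul_cancel_left]; exact y1
  rcases h1 with rfl | rfl | rfl | rfl | rfl | rfl
  · exact hn hk
  · have h5 := congrFun e 0
    rw [D.mul_ph, hz, D.a_adj (by decide), z0, y0, one_mul] at h5
    exact z1 h5
  · have h5 := congrFun e 0
    rw [D.mul_ph, D.mul_ph, hz, D.a_self, D.a_adj (by decide), z0, y0, one_mul, inv_eq_one] at h5
    exact z1 h5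
  · have h5 := congrFun e 0
    rw [D.mul_ph, D.mul_ph, hz, D.a_non (by decide), D.a_adj (by decide), z0, y0, one_mul] at h5
    exact z1 h5
  · have h5 := congrFun e 0
    rw [D.mul_ph, D.mul_ph, D.mul_ph, hz, D.a_self, D.a_non (by decide), D.a_adj (by decide), z0, y0, one_mul,
      inv_eq_one] at h5
    exact z1 h5
  · have h5 := congrFun e 0
    -- coordinate `0` : `z 2`
    rw [D.mul_ph, D.mul_ph, D.mul_ph, D.mul_ph, hz, D.a_adj (by decide) (i := 1) (j := 0), D.a_self 0,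
      D.a_non (by decide) (i := 2) (j := 0), D.a_adj (by decide) (i := 1) (j := 0),
      D.a_adj (by decide) (i := 0) (j := 1), D.a_adj (by decide) (i := 2) (j := 1),
      D.a_non (by decide) (i := 2) (j := 0), D.a_adj (by decide) (i := 1) (j := 0),
      D.a_self 1, D.a_adj (by decide) (i := 1) (j := 2), z0, y0] at h5
    apply z2
    rw [← h5]
    simp only [one_mul]
    rw [mul_comm (z 2) (z 1), inv_mul_cancel_left, mul_comm (z 2), inv_mul_cancel_left]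

/-- formal action -/
def fm (i : Fin 4) (f : Fin 4 → ℤ × ℤ) : Fin 4 → ℤ × ℤ :=
  fun j => ((f j).1 - ca i j * (f i).1, (f j).2 - ca i j * (f i).2)

def app : List (Fin 4) → (Fin 4 → ℤ × ℤ) → (Fin 4 → ℤ × ℤ)
  | [], f => f
  | i :: l, f => fm i (app l f)

def ev (u v : B) (f : Fin 4 → ℤ × ℤ) : Fin 4 → B := fun j => u ^ (f j).1 * v ^ (f j).2

theorem ph_ev (u v : B) (i : Fin 4) (f : Fin 4 → ℤ × ℤ) : D.ph (D.s i) (ev u v f) = ev u v (fm i f) := by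
  funext j
  rw [D.act]
  simp only [ev, fm]
  rw [mul_zpow, ← zpow_mul, ← zpow_mul, sub_eq_add_neg, sub_eq_add_neg, zpow_add, zpow_add,
    mul_mul_mul_comm]
  congr 2 <;> congr 1 <;> ring

def wd : List (Fin 4) → W
  | [] => 1
  | i :: l => D.s i * wd l

theorem ph_wd (u v : B) (l : List (Fin 4)) (f : Fin 4 → ℤ × ℤ) : D.ph (D.wd l) (ev u v f) = ev u v (app l f) := by
  induction l with
  | nil => simp [wd, app]
  | cons i l ih => rw [wd, app, D.mul_ph, ih, D.ph_ev]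

theorem wd_mem {l : List (Fin 4)} (hl : ∀ i ∈ l, i ≠ 3) : D.wd l ∈ D.P {0, 1, 2} := by
  induction l with
  | nil => exact one_mem _
  | cons i l ih =>
    rw [wd]
    refine mul_mem (D.mem_P ?_) (ih fun j hj => hl j (List.mem_cons_of_mem _ hj))
    have h1 := hl i List.mem_cons_self
    revert h1
    fin_cases i <;> simp

/-- the orbit of `(0, 0, u, v)` -/
def tab : List ((Fin 4 → ℤ × ℤ) × List (Fin 4)) := [(![(0, 0), (0, 0), (1, 0), (0, 1)], []),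
 (![(0, 0), (1, 0), (-1, 0), (0, 1)], [2]),
 (![(0, 0), (0, 1), (1, 0), (0, -1)], [2]),
 (![(1, 0), (-1, 0), (0, 0), (1, 1)], [2, 1]),
 (![(0, 0), (1, 1), (-1, 0), (0, -1)], []),
 (![(0, 1), (0, -1), (1, 1), (0, 0)], [2, 1]),
 (![(-1, 0), (0, 0), (0, 0), (1, 1)], [2, 1, 0]),
 (![(1, 0), (0, 1), (0, 0), (-1, -1)], [1, 2, 0, 1]),
 (![(1, 1), (-1, -1), (0, 1), (1, 0)], [1]),
 (![(0, -1), (0, 0), (1, 1), (0, 0)], [2, 1, 0]),
 (![(0, 1), (1, 0), (-1, -1), (0, 0)], [1, 2, 1]),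
 (![(-1, 0), (1, 1), (0, 0), (-1, -1)], [1, 2, 0, 1, 0]),
 (![(1, 1), (0, -1), (0, 1), (-1, 0)], [1, 2, 0]),
 (![(-1, -1), (0, 0), (0, 1), (1, 0)], [1, 0]),
 (![(1, 1), (-1, 0), (0, -1), (1, 0)], [1, 2]),
 (![(0, -1), (1, 1), (-1, -1), (0, 0)], [1, 2, 1, 0]),
 (![(0, 1), (-1, -1), (1, 1), (0, 0)], [1, 2, 1, 0]),
 (![(-1, -1), (1, 0), (0, 1), (-1, 0)], [1, 2]),
 (![(1, 1), (0, 0), (0, -1), (-1, 0)], [1, 0]),
 (![(-1, -1), (0, 1), (0, -1), (1, 0)], [1, 2, 0]),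
 (![(1, 0), (-1, -1), (0, 0), (1, 1)], [1, 2, 0, 1, 0]),
 (![(0, -1), (-1, 0), (1, 1), (0, 0)], [1, 2, 1]),
 (![(0, 1), (0, 0), (-1, -1), (0, 0)], [2, 1, 0]),
 (![(-1, -1), (1, 1), (0, -1), (-1, 0)], [1]),
 (![(-1, 0), (0, -1), (0, 0), (1, 1)], [1, 2, 0, 1]),
 (![(1, 0), (0, 0), (0, 0), (-1, -1)], [2, 1, 0]),
 (![(0, -1), (0, 1), (-1, -1), (0, 0)], [2, 1]),
 (![(0, 0), (-1, -1), (1, 0), (0, 1)], []),
 (![(-1, 0), (1, 0), (0, 0), (-1, -1)], [2, 1]),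
 (![(0, 0), (0, -1), (-1, 0), (0, 1)], [2]),
 (![(0, 0), (-1, 0), (1, 0), (0, -1)], [2]),
 (![(0, 0), (0, 0), (-1, 0), (0, -1)], [])]

theorem tab_closed : ∀ p ∈ tab, ∀ i, ∃ p' ∈ tab, p'.1 = fm i p.1 := by decide +kernel

theorem tab_rep : ∀ p ∈ tab, (∀ i ∈ p.2, i ≠ 3) ∧ (app p.2 p.1 0 = (0, 0)) ∧
    (app p.2 p.1 2 = (1, 0) ∨ app p.2 p.1 2 = (-1, 0)) := by decide +kernel

theorem e1 {b : Fin 4 → B} (b0 : b 0 = 1) (b1 : b 1 = 1) (x : W) (h : D.El {0, 1, 2} (D.ph x b)) : b 2 = 1 := by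
  have hb : b = ev (b 2) (b 3) ![(0, 0), (0, 0), (1, 0), (0, 1)] := by
    funext j
    fin_cases j <;> simp [ev, b0, b1]
  obtain ⟨p, hp, ex⟩ : ∃ p ∈ tab, D.ph x b = ev (b 2) (b 3) p.1 := by
    refine D.all_ind (p := fun x => ∃ p ∈ tab, D.ph x b = ev (b 2) (b 3) p.1) ?_ ?_ x
    · exact ⟨(![(0, 0), (0, 0), (1, 0), (0, 1)], []), List.mem_cons_self, by rw [map_one]; exact hb⟩
    · rintro i w ⟨p, hp, e⟩
      obtain ⟨p', hp', e'⟩ := tab_closed p hp i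
      exact ⟨p', hp', by rw [D.mul_ph, e, D.ph_ev, e']⟩
  obtain ⟨h1, h2, h3⟩ := tab_rep p hp
  have h4 := El.move D h (D.wd_mem h1)
  rw [ex, D.ph_wd] at h4
  have h5 := D.l1 (by simp [ev, h2]) h4
  rcases h3 with h3 | h3
  · simpa [ev, h3] using h5
  · simpa [ev, h3] using h5

/-! ### the mirror image -/

/-- `swap 2 3` -/
def sw : Fin 4 → Fin 4 := ![0, 1, 3, 2]

theorem sw_sw (i : Fin 4) : sw (sw i) = i := by revert i; decide

theorem ca_sw (i j : Fin 4) : ca (sw i) (sw j) = ca i j := by revert i j; decide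

/-- precomposition with `sw` -/
def pe : Equiv.Perm (Fin 4 → B) where
  toFun b := fun j => b (sw j)
  invFun b := fun j => b (sw j)
  left_inv b := by funext j; show b (sw (sw j)) = b j; rw [sw_sw]
  right_inv b := by funext j; show b (sw (sw j)) = b j; rw [sw_sw]

def mirror : DS W B where
  s i := D.s (sw i)
  ph := (MulAut.conj (pe (B := B))).toMonoidHom.comp D.ph
  gen := by
    rw [← D.gen]
    congr 1
    ext x
    simp only [Set.mem_range]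
    constructor
    · rintro ⟨i, rfl⟩; exact ⟨_, rfl⟩
    · rintro ⟨i, rfl⟩; exact ⟨sw i, by rw [sw_sw]⟩
  sq i := D.sq _
  c02 := D.c03
  c03 := D.c02
  c23 := D.c23.symm
  b01 := D.b01
  b12 := D.b13
  b13 := D.b12
  act i b j := by
    show D.ph (D.s (sw i)) (fun k => b (sw k)) (sw j) = _
    rw [D.act, sw_sw, sw_sw, ca_sw]

theorem mirror_ph (w : W) (b : Fin 4 → B) : D.mirror.ph w b = pe (D.ph w (pe b)) := rfl

theorem mirror_P (J : Set (Fin 4)) : D.mirror.P J = D.P (sw '' J) := by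
  unfold P
  rw [Set.image_image]
  rfl

theorem e2 {b : Fin 4 → B} (b0 : b 0 = 1) (b1 : b 1 = 1) (x : W) (h : D.El {0, 1, 3} (D.ph x b)) : b 3 = 1 := by
  have hsw : sw '' ({0, 1, 2} : Set (Fin 4)) = {0, 1, 3} := by
    rw [Set.image_insert_eq, Set.image_insert_eq, Set.image_singleton]; rfl
  have hss : Function.Involutive sw := sw_sw
  refine D.mirror.e1 (b := pe b) b0 b1 x ?_
  have hpe : ∀ b : Fin 4 → B, pe (pe b) = b := fun b => by funext j; show b (sw (sw j)) = _; rw [sw_sw]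
  intro v hv K hK
  rw [mirror_P, hsw] at hv
  have hK' : sw '' K ⊂ {0, 1, 3} := by
    rw [← hsw]
    exact hss.injective.image_strictMono hK
  obtain ⟨w, hw, hn, e⟩ := h v hv _ hK'
  refine ⟨w, by rw [mirror_P, hsw]; exact hw, by rw [mirror_P]; exact hn, ?_⟩
  simp only [mirror_ph, hpe]
  rw [e]

end DS

/-! ### Coxeter systems -/

section cox

variable {W : Type u} [Group W] (cs : CoxeterSystem (TypeD.M 2) W) {B : Type v} [CommGroup B]
  [MulAction W (Fin 4 → B)]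

/-- no conjugate of the stabiliser in `W_J` lies in a smaller parabolic subgroup -/
def El (J : Set (Fin 4)) (b : Fin 4 → B) : Prop :=
  ∀ v ∈ WJ cs J, ∀ K ⊂ J, ∃ w ∈ WJ cs J, w ∉ WJ cs K ∧ w • v • b = v • b

theorem ca_eq (i j : Fin 4) : TypeD.A 2 i j = ca i j := by
  rw [TypeD.A_apply]; revert i j; decide

theorem comm_of {i j : Fin 4} (h : TypeD.M 2 i j = 2) : cs.simple i * cs.simple j = cs.simple j * cs.simple i := by
  have h1 := cs.simple_mul_simple_pow i j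
  rw [h, pow_two] at h1
  have h2 := cs.simple_mul_simple_self i
  have h3 := cs.simple_mul_simple_self j
  have h4 : cs.simple i * cs.simple j = (cs.simple i * cs.simple j)⁻¹ := eq_inv_of_mul_eq_one_left h1
  rw [h4, mul_inv_rev, cs.inv_simple, cs.inv_simple]

theorem braid_of {i j : Fin 4} (h : TypeD.M 2 i j = 3) :
    cs.simple i * cs.simple j * cs.simple i = cs.simple j * cs.simple i * cs.simple j := by
  have h1 := cs.simple_mul_simple_pow i j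
  rw [h, pow_succ, pow_two] at h1
  have h4 : cs.simple i * cs.simple j * cs.simple i = (cs.simple j * cs.simple i * cs.simple j)⁻¹ := by
    rw [eq_inv_iff_mul_eq_one, ← h1]; group
  rw [h4, mul_inv_rev, mul_inv_rev, cs.inv_simple, cs.inv_simple, mul_assoc]

/-- the data of a Coxeter system -/
def ds (hs : ∀ (i : Fin 4) (b : Fin 4 → B), cs.simple i • b = fun j => b j * (b i) ^ (-(TypeD.A 2 i j))) : DS W B where
  s := cs.simple
  ph := MulAction.toPermHom W (Fin 4 → B)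
  gen := cs.subgroup_closure_range_simple
  sq := cs.simple_mul_simple_self
  c02 := comm_of cs (by decide)
  c03 := comm_of cs (by decide)
  c23 := comm_of cs (by decide)
  b01 := braid_of cs (by decide)
  b12 := braid_of cs (by decide)
  b13 := braid_of cs (by decide)
  act i b j := by
    show (cs.simple i • b) j = _
    rw [hs]
    show b j * (b i) ^ (-(TypeD.A 2 i j)) = _
    rw [ca_eq]

variable (hs : ∀ (i : Fin 4) (b : Fin 4 → B), cs.simple i • b = fun j => b j * (b i) ^ (-(TypeD.A 2 i j)))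
include hs

theorem E0 {b : Fin 4 → B} (h : El cs {0, 1} b) : b 0 = 1 ∧ b 1 = 1 := (ds cs hs).e0 h

theorem E1 {b : Fin 4 → B} (b0 : b 0 = 1) (b1 : b 1 = 1) (x : W) (h : El cs {0, 1, 2} (x • b)) : b 2 = 1 :=
  (ds cs hs).e1 b0 b1 x h

theorem E2 {b : Fin 4 → B} (b0 : b 0 = 1) (b1 : b 1 = 1) (x : W) (h : El cs {0, 1, 3} (x • b)) : b 3 = 1 :=
  (ds cs hs).e2 b0 b1 x h

end cox

end Cfsg.Agent.H643.OZ.D4
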